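import Mathlib
import Cfsg.Agent.H565.RankTwo
import Cfsg.Agent.HKS.TwoOneSL
import Cfsg.Agent.H847.IF.Abs
import Cfsg.Agent.S0205
import Cfsg.Agent.S0215
import Cfsg.Agent.Lib.Cores
import Cfsg.Agent.OddOrderLocal.PLengthOne

/-!
# S5719, `³D₄(q)`, `q` odd: groups with a quasisimple normal subgroup in every involution centraliser (helper753)

`Dat K q` : `M` finite, `K z ⊴ C_M(z)` for every involution `z` of `M`, with `K z` quasisimple with centre `⟨z⟩`,
`C_M(K z)` has the only involution `z`; ... Conclusion: `M / Z(M)` is simple, `|Z(M)|` is odd.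
-/

set_option autoImplicit false
set_option linter.unusedSectionVars false
set_option linter.style.haveILetI false

namespace Cfsg.Agent.H753.IFx

open Subgroup

section General

variable {M : Type*} [Group M]

/-- an element which normalises a perfect subgroup modulo a central subgroup centralises it -/
theorem comm_of {K C : Subgroup M} (hK : ⁅K, K⁆ = K) (hCK : ∀ c ∈ C, ∀ k ∈ K, c * k = k * c)
    (hCC : ∀ c ∈ C, ∀ d ∈ C, c * d = d * c) {x : M} (h : ∀ k ∈ K, x * k * x⁻¹ * k⁻¹ ∈ C) :
    ∀ k ∈ K, x * k = k * x := by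
  have h1 : ⁅K, K⁆ ≤ centralizer ({x} : Set M) := by
    rw [commutator_le]
    intro a ha b hb
    rw [mem_centralizer_singleton_iff]
    have ea : x * a * x⁻¹ = (x * a * x⁻¹ * a⁻¹) * a := by group
    have eb : x * b * x⁻¹ = (x * b * x⁻¹ * b⁻¹) * b := by group
    have hc := h a ha
    have hd := h b hb
    generalize x * a * x⁻¹ * a⁻¹ = c at ea hc
    generalize x * b * x⁻¹ * b⁻¹ = d at eb hd
    have c1 : Commute c a := hCK c hc a ha
    have c2 : Commute c b := hCK c hc b hb
    have c3 : Commute d a := hCK d hd a ha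
    have c4 : Commute d b := hCK d hd b hb
    have c5 : Commute c d := hCC c hc d hd
    have c6 : Commute c (a * (d * b) * a⁻¹) := (c1.mul_right (c5.mul_right c2)).mul_right c1.inv_right
    have c7 : Commute d (a * b * a⁻¹ * b⁻¹) :=
      ((c3.mul_right c4).mul_right c3.inv_right).mul_right c4.inv_right
    have e1 : x * (a * b * a⁻¹ * b⁻¹) * x⁻¹ = a * b * a⁻¹ * b⁻¹ := by
      calc x * (a * b * a⁻¹ * b⁻¹) * x⁻¹ = (x * a * x⁻¹) * (x * b * x⁻¹) * (x * a * x⁻¹)⁻¹ * (x * b * x⁻¹)⁻¹ := by group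
        _ = (c * a) * (d * b) * (c * a)⁻¹ * (d * b)⁻¹ := by rw [ea, eb]
        _ = (c * (a * (d * b) * a⁻¹)) * c⁻¹ * (d * b)⁻¹ := by group
        _ = (a * (d * b) * a⁻¹) * (d * b)⁻¹ := by rw [c6.eq]; group
        _ = (a * d) * b * a⁻¹ * b⁻¹ * d⁻¹ := by group
        _ = (d * a) * b * a⁻¹ * b⁻¹ * d⁻¹ := by rw [c3.eq]
        _ = (d * (a * b * a⁻¹ * b⁻¹)) * d⁻¹ := by group
        _ = a * b * a⁻¹ * b⁻¹ := by rw [c7.eq, mul_inv_cancel_right]
    show (a * b * a⁻¹ * b⁻¹) * x = x * (a * b * a⁻¹ * b⁻¹)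
    calc (a * b * a⁻¹ * b⁻¹) * x = x * (a * b * a⁻¹ * b⁻¹) * x⁻¹ * x := by rw [e1]
      _ = x * (a * b * a⁻¹ * b⁻¹) := by group
  intro k hk
  rw [← hK] at hk
  exact (mem_centralizer_singleton_iff.1 (h1 hk)).symm

theorem ord_conj (g x : M) : orderOf (g * x * g⁻¹) = orderOf x :=
  orderOf_injective (MulAut.conj g).toMonoidHom (MulAut.conj g).injective x

theorem prod_sq {s z : M} (hs : s * s = 1) (hz : z * z = 1) (hsz : s * z = z * s) : s * z * (s * z) = 1 := by
  calc s * z * (s * z) = s * (z * s) * z := by group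
    _ = s * (s * z) * z := by rw [hsz]
    _ = (s * s) * (z * z) := by group
    _ = 1 := by rw [hs, hz, one_mul]

/-- the four-group -/
def four (s z : M) (hs : s * s = 1) (hz : z * z = 1) (hsz : s * z = z * s) : Subgroup M where
  carrier := {x | x = 1 ∨ x = s ∨ x = z ∨ x = s * z}
  one_mem' := Or.inl rfl
  mul_mem' := by
    have e1 : s * (s * z) = z := by rw [← mul_assoc, hs, one_mul]
    have e2 : z * (s * z) = s := by rw [hsz, ← mul_assoc, hz, one_mul]
    have e3 : s * z * s = z := by rw [hsz, mul_assoc, hs, mul_one]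
    have e4 : s * z * z = s := by rw [mul_assoc, hz, mul_one]
    have e5 : s * z * (s * z) = 1 := by rw [← mul_assoc, e3, hz]
    rintro a b (rfl | rfl | rfl | rfl) (rfl | rfl | rfl | rfl) <;>
      simp [hs, hz, ← hsz, e1, e2, e3, e4, e5]
  inv_mem' := by
    rintro a (rfl | rfl | rfl | rfl)
    · left; exact inv_one
    · right; left; exact inv_eq_of_mul_eq_one_right hs
    · right; right; left; exact inv_eq_of_mul_eq_one_right hz
    · right; right; right
      exact inv_eq_of_mul_eq_one_right (prod_sq hs hz hsz)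

theorem card_four {s z : M} (hs : s * s = 1) (hz : z * z = 1) (hsz : s * z = z * s) (hs1 : s ≠ 1) (hz1 : z ≠ 1)
    (hne : s ≠ z) : Nat.card (four s z hs hz hsz) = 4 := by
  classical
  have h1 : ((four s z hs hz hsz : Subgroup M) : Set M) = (({1, s, z, s * z} : Finset M) : Set M) := by
    ext x
    simp [four]
  have h2 : Nat.card (four s z hs hz hsz) = Set.ncard ((four s z hs hz hsz : Subgroup M) : Set M) := rfl
  rw [h2, h1, Set.ncard_coe_finset]
  have e1 : s * z ≠ 1 := fun h => hne (by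
    have := congrArg (· * z) h
    simpa [mul_assoc, hz] using this)
  have e2 : s * z ≠ s := fun h => hz1 (by simpa using h)
  have e3 : s * z ≠ z := fun h => hs1 (by simpa using h)
  rw [Finset.card_insert_of_notMem, Finset.card_insert_of_notMem, Finset.card_insert_of_notMem, Finset.card_singleton]
  · simpa using Ne.symm e3
  · simp [hne, Ne.symm e2]
  · simp [Ne.symm hs1, Ne.symm hz1, Ne.symm e1]

/-- the orbit of `x` under `K` -/
theorem relIndex_cent_le [Finite M] {K R : Subgroup M} {x : M} (hx : x ∈ R) (h : ∀ k ∈ K, ∀ y ∈ R, k * y * k⁻¹ ∈ R) :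
    (centralizer ({x} : Set M)).relIndex K ≤ Nat.card R := by
  rw [relIndex, index]
  let φ : (K ⧸ (centralizer ({x} : Set M)).subgroupOf K) → R := fun c =>
    Quotient.liftOn' c (fun k => ⟨k.1 * x * k.1⁻¹, h k.1 k.2 x hx⟩) (by
      intro k k' hkk
      rw [QuotientGroup.leftRel_apply, mem_subgroupOf, mem_centralizer_singleton_iff] at hkk
      have h1 : (k.1)⁻¹ * k'.1 * x = x * ((k.1)⁻¹ * k'.1) := by simpa using hkk
      apply Subtype.ext
      show k.1 * x * k.1⁻¹ = k'.1 * x * k'.1⁻¹
      calc k.1 * x * k.1⁻¹ = k.1 * (x * ((k.1)⁻¹ * k'.1)) * k'.1⁻¹ := by group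
        _ = k.1 * ((k.1)⁻¹ * k'.1 * x) * k'.1⁻¹ := by rw [h1]
        _ = _ := by group)
  refine Nat.card_le_card_of_injective φ ?_
  intro c c' hcc
  induction c using QuotientGroup.induction_on with
  | H k =>
    induction c' using QuotientGroup.induction_on with
    | H k' =>
      have h1 : k.1 * x * k.1⁻¹ = k'.1 * x * k'.1⁻¹ := congrArg Subtype.val hcc
      rw [QuotientGroup.eq, mem_subgroupOf, mem_centralizer_singleton_iff]
      show (k.1)⁻¹ * k'.1 * x = x * ((k.1)⁻¹ * k'.1)
      calc (k.1)⁻¹ * k'.1 * x = (k.1)⁻¹ * (k'.1 * x * k'.1⁻¹) * k'.1 := by group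
        _ = (k.1)⁻¹ * (k.1 * x * k.1⁻¹) * k'.1 := by rw [h1]
        _ = _ := by group

/-- Brauer-Wielandt for a four-group -/
theorem card_le_cube [Finite M] {s z : M} (hs : orderOf s = 2) (hz : orderOf z = 2) (hsz : s * z = z * s) (hne : s ≠ z)
    {R : Subgroup M} (hR : R.Normal) (hodd : ¬ 2 ∣ Nat.card R) {q : ℕ}
    (hc : ∀ v : M, orderOf v = 2 → Nat.card ↥(R ⊓ centralizer ({v} : Set M)) ≤ q) : Nat.card R ≤ q ^ 3 := by
  classical
  have hs' : s * s = 1 := by rw [← pow_two, ← hs, pow_orderOf_eq_one]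
  have hz' : z * z = 1 := by rw [← pow_two, ← hz, pow_orderOf_eq_one]
  have hs1 : s ≠ 1 := by rintro rfl; rw [orderOf_one] at hs; omega
  have hz1 : z ≠ 1 := by rintro rfl; rw [orderOf_one] at hz; omega
  have hexp : ∀ a ∈ four s z hs' hz' hsz, a ^ 2 = 1 := by
    rintro a (rfl | rfl | rfl | rfl)
    · exact one_pow 2
    · rw [pow_two, hs']
    · rw [pow_two, hz']
    · rw [pow_two, prod_sq hs' hz' hsz]
  have hcom : ∀ a ∈ four s z hs' hz' hsz, ∀ b ∈ four s z hs' hz' hsz, a * b = b * a := by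
    intro a ha b hb
    have h1 := hexp _ (mul_mem ha hb)
    have h2 := hexp _ ha
    have h3 := hexp _ hb
    rw [pow_two] at h1 h2 h3
    have e2 : a⁻¹ = a := inv_eq_of_mul_eq_one_right h2
    have e3 : b⁻¹ = b := inv_eq_of_mul_eq_one_right h3
    have e4 : (a * b)⁻¹ = a * b := inv_eq_of_mul_eq_one_right h1
    rw [← e4, mul_inv_rev, e2, e3]
  have hcard := card_four hs' hz' hsz hs1 hz1 hne
  haveI : Fintype {f : M // f ∈ four s z hs' hz' hsz ∧ f ≠ 1} := Fintype.ofFinite _
  have hBW := Cfsg.Agent.H565.RankTwo.brauer_wielandt (q := 2) Nat.prime_two (four s z hs' hz' hsz) R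
    (by rw [normalizer_eq_top_iff.2 hR]; exact le_top) (by rw [hcard]; norm_num) hcom hexp hodd
  have h3 : Fintype.card {f : M // f ∈ four s z hs' hz' hsz ∧ f ≠ 1} = 3 := by
    haveI := Fintype.ofFinite (four s z hs' hz' hsz)
    have h4 : Fintype.card {f : four s z hs' hz' hsz // ¬ f = 1} = 3 := by
      rw [Fintype.card_subtype_compl, Fintype.card_subtype_eq, ← Nat.card_eq_fintype_card, hcard]
    rw [← h4]
    exact Fintype.card_congr ⟨fun f => ⟨⟨f.1, f.2.1⟩, fun h => f.2.2 (congrArg Subtype.val h)⟩,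
      fun f => ⟨f.1.1, f.1.2, fun h => f.2 (Subtype.ext h)⟩, fun _ => rfl, fun _ => rfl⟩
  have h5 : ∏ f : {f : M // f ∈ four s z hs' hz' hsz ∧ f ≠ 1}, Nat.card ↥(R ⊓ centralizer ({f.1} : Set M)) ^ 2 ≤
      (q ^ 2) ^ 3 := by
    rw [← h3]
    refine Finset.prod_le_pow_card _ _ _ (fun f _ => Nat.pow_le_pow_left (hc _ ?_) 2)
    exact orderOf_eq_prime (hexp _ f.2.1) f.2.2
  rw [hBW] at h5
  have h6 : 1 ≤ Nat.card ↥(R ⊓ centralizer ((four s z hs' hz' hsz : Subgroup M) : Set M)) ^ (2 ^ 2 * (2 - 1)) :=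
    Nat.one_le_pow _ _ Nat.card_pos
  have h7 : Nat.card R ^ 2 ≤ (q ^ 3) ^ 2 := by
    calc Nat.card R ^ 2 = 1 * Nat.card R ^ (2 ^ 2 - 2) := by norm_num
      _ ≤ _ := Nat.mul_le_mul_right _ h6
      _ ≤ (q ^ 2) ^ 3 := h5
      _ = (q ^ 3) ^ 2 := by ring
  exact (Nat.pow_le_pow_iff_left (by norm_num)).1 h7

end General

/-- the data -/
structure Dat {M : Type*} [Group M] (K : M → Subgroup M) (q : ℕ) : Prop where
  mem : ∀ z, orderOf z = 2 → z ∈ K z
  comm : ∀ z, orderOf z = 2 → ∀ k ∈ K z, z * k = k * z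
  norm : ∀ z, orderOf z = 2 → ∀ g, g * z = z * g → ∀ k ∈ K z, g * k * g⁻¹ ∈ K z
  perf : ∀ z, orderOf z = 2 → ⁅K z, K z⁆ = K z
  quasi : ∀ z, orderOf z = 2 → ∀ N : Subgroup M, N ≤ K z → (∀ k ∈ K z, ∀ n ∈ N, k * n * k⁻¹ ∈ N) → N ≤ zpowers z ∨ N = K z
  uniq : ∀ z, orderOf z = 2 → ∀ t, orderOf t = 2 → (∀ k ∈ K z, t * k = k * t) → t = z
  gen : ∀ N : Subgroup M, (∀ z, orderOf z = 2 → K z ≤ N) → N = ⊤
  two : ∃ s z : M, orderOf s = 2 ∧ orderOf z = 2 ∧ s * z = z * s ∧ s ≠ z
  card : ∀ z, orderOf z = 2 → ∀ r : ℕ, r.Prime → r ≠ 2 → ∀ R : Subgroup M, IsPGroup r R →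
    (∀ x ∈ R, ∀ k ∈ K z, x * k = k * x) → Nat.card R ≤ q
  idx : ∀ z, orderOf z = 2 → ∀ X : Subgroup M, X.relIndex (K z) ≤ q ^ 3 → K z ≤ X

section Main

variable {M : Type*} [Group M] [Finite M] {K : M → Subgroup M} {q : ℕ}

theorem eq_or_of_mem_zpowers {z x : M} (hz : orderOf z = 2) (hx : x ∈ zpowers z) : x = 1 ∨ x = z := by
  obtain ⟨n, rfl⟩ := hx
  have h2 : z ^ (2 : ℤ) = 1 := by
    have : z ^ 2 = 1 := by rw [← hz]; exact pow_orderOf_eq_one z
    exact_mod_cast this
  rcases Int.even_or_odd n with ⟨m, rfl⟩ | ⟨m, rfl⟩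
  · left
    show z ^ (m + m) = 1
    rw [← two_mul, zpow_mul, h2, one_zpow]
  · right
    show z ^ (2 * m + 1) = z
    rw [zpow_add, zpow_mul, h2, one_zpow, one_mul, zpow_one]

/-- a normal subgroup `N` with `N ∩ K z ≤ ⟨z⟩` : `C_N(z)` centralises `K z` -/
theorem Dat.cent (D : Dat K q) {z : M} (hz : orderOf z = 2) {N : Subgroup M} (hN : N.Normal)
    (h : N ⊓ K z ≤ zpowers z) {x : M} (hx : x ∈ N) (hxz : x * z = z * x) : ∀ k ∈ K z, x * k = k * x := by
  refine comm_of (C := zpowers z) (D.perf z hz) ?_ ?_ ?_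
  · rintro c ⟨n, rfl⟩ k hk
    exact ((show Commute z k from D.comm z hz k hk).zpow_left n).eq
  · rintro c ⟨n, rfl⟩ d ⟨m, rfl⟩
    exact ((Commute.refl z).zpow_zpow n m).eq
  · intro k hk
    apply h
    constructor
    · have h1 : x * k * x⁻¹ * k⁻¹ = x * (k * x⁻¹ * k⁻¹) := by group
      rw [h1]
      exact N.mul_mem hx (hN.conj_mem _ (N.inv_mem hx) _)
    · exact (K z).mul_mem (D.norm z hz x hxz k hk) ((K z).inv_mem hk)

theorem Dat.inf_le (D : Dat K q) {z : M} (hz : orderOf z = 2) {N : Subgroup M} (hN : N.Normal) :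
    N ⊓ K z ≤ zpowers z ∨ K z ≤ N := by
  rcases D.quasi z hz (N ⊓ K z) inf_le_right (fun k hk n hn =>
    ⟨hN.conj_mem _ hn.1 _, (K z).mul_mem ((K z).mul_mem hk hn.2) ((K z).inv_mem hk)⟩) with h | h
  · exact Or.inl h
  · exact Or.inr (by rw [← h]; exact inf_le_left)

/-- an involution `t` of a normal subgroup which is alone -/
theorem Dat.no_unique (D : Dat K q) {t : M} (ht : orderOf t = 2) (h : ∀ x : M, x * t = t * x) : False := by
  have h1 : ∀ z, orderOf z = 2 → z = t := by
    intro z hz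
    exact (D.uniq z hz t ht (fun k _ => (h k).symm)).symm
  obtain ⟨s, z, hs, hz, -, hsz⟩ := D.two
  exact hsz ((h1 s hs).trans (h1 z hz).symm)

theorem Dat.not_pgroup (D : Dat K q) {z : M} (hz : orderOf z = 2) {r : ℕ} [Fact r.Prime] (h : IsPGroup r (K z)) : False := by
  have h1 : Group.IsNilpotent (K z) := h.isNilpotent
  have h2 : Group.IsSolvable (K z) := inferInstance
  have h3 : K z = ⊥ := by
    by_contra hne
    have : Nontrivial (K z) := (Subgroup.nontrivial_iff_ne_bot _).2 hne
    have h4 := Group.IsSolvable.commutator_lt_top_of_nontrivial (K z)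
    have h5 : commutator (K z) = ⊤ := by
      rw [commutator_def]
      have h6 : (⁅(⊤ : Subgroup (K z)), (⊤ : Subgroup (K z))⁆).map (K z).subtype = (⊤ : Subgroup (K z)).map (K z).subtype := by
        rw [map_commutator, ← MonoidHom.range_eq_map, range_subtype]
        exact D.perf z hz
      exact map_injective (K z).subtype_injective h6
    rw [h5] at h4
    exact lt_irrefl _ h4
  have h4 := D.mem z hz
  rw [h3, mem_bot] at h4
  rw [h4, orderOf_one] at hz
  omega

/-- **every normal `r`-subgroup is central** -/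
theorem Dat.pcore (D : Dat K q) {r : ℕ} (hr : r.Prime) {R : Subgroup M} (hR : R.Normal) (hRr : IsPGroup r R) :
    R ≤ center M := by
  haveI := Fact.mk hr
  have hle : ∀ z, orderOf z = 2 → R ⊓ K z ≤ zpowers z := by
    intro z hz
    rcases D.inf_le hz hR with h | h
    · exact h
    · exact (D.not_pgroup hz (hRr.to_le h)).elim
  by_cases hr2 : r = 2
  · subst hr2
    by_contra hne
    have hR1 : R ≠ ⊥ := by
      rintro rfl
      exact hne bot_le
    haveI : Nontrivial R := (Subgroup.nontrivial_iff_ne_bot _).2 hR1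
    haveI := hRr.center_nontrivial
    obtain ⟨t, ht⟩ : ∃ t : center R, orderOf t = 2 := by
      obtain ⟨n, hn⟩ := (hRr.to_subgroup (center R)).exists_card_eq
      have hn0 : n ≠ 0 := by
        rintro rfl
        rw [pow_zero, Nat.card_eq_one_iff_unique] at hn
        exact not_subsingleton _ hn.1
      exact exists_prime_orderOf_dvd_card' 2 (hn ▸ dvd_pow_self 2 hn0)
    have ht2 : orderOf ((t : R) : M) = 2 := by
      rw [orderOf_coe, orderOf_coe]
      exact ht
    have hRt : ∀ x ∈ R, x * ((t : R) : M) = ((t : R) : M) * x := by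
      intro x hx
      have := mem_center_iff.1 t.2 ⟨x, hx⟩
      exact congrArg Subtype.val this
    have huq : ∀ x ∈ R, orderOf x = 2 → x = ((t : R) : M) := by
      intro x hx hx2
      exact D.uniq _ ht2 x hx2 (D.cent ht2 hR (hle _ ht2) hx (hRt x hx))
    refine D.no_unique ht2 (fun g => ?_)
    have h1 : g * ((t : R) : M) * g⁻¹ = ((t : R) : M) := by
      apply huq _ (hR.conj_mem _ (t : R).2 _)
      rw [ord_conj, ht2]
    calc g * ((t : R) : M) = g * ((t : R) : M) * g⁻¹ * g := by group
      _ = _ := by rw [h1]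
  · -- odd
    have hc : ∀ z, orderOf z = 2 → Nat.card ↥(R ⊓ centralizer ({z} : Set M)) ≤ q := by
      intro z hz
      refine D.card z hz r hr hr2 _ (hRr.to_le inf_le_left) ?_
      rintro x ⟨hx, hxz⟩
      exact D.cent hz hR (hle z hz) hx (mem_centralizer_singleton_iff.1 hxz)
    have hcard : Nat.card R ≤ q ^ 3 := by
      obtain ⟨s, z, hs, hz, hsz, hne⟩ := D.two
      refine card_le_cube hs hz hsz hne hR ?_ hc
      intro h2
      obtain ⟨n, hn⟩ := hRr.exists_card_eq
      rw [hn] at h2
      exact hr2 ((Nat.prime_dvd_prime_iff_eq Nat.prime_two hr).1 (Nat.prime_two.dvd_of_dvd_pow h2)).symm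
    intro x hx
    have hall : ∀ z, orderOf z = 2 → K z ≤ centralizer ({x} : Set M) := by
      intro z hz
      apply D.idx z hz
      exact (relIndex_cent_le hx (fun k _ y hy => hR.conj_mem _ hy _)).trans hcard
    have h1 := D.gen _ hall
    rw [mem_center_iff]
    intro g
    have : g ∈ centralizer ({x} : Set M) := by rw [h1]; trivial
    exact mem_centralizer_singleton_iff.1 this

theorem Dat.solv (D : Dat K q) (n : ℕ) : ∀ N : Subgroup M, N.Normal → Group.IsSolvable N → Nat.card N ≤ n → N ≤ center M := by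
  induction n with
  | zero =>
    intro N _ _ hn
    have := Nat.card_pos (α := N)
    omega
  | succ n ih =>
    intro N hN hsol hn
    by_cases hb : N = ⊥
    · rw [hb]; exact bot_le
    haveI : Nontrivial N := (Subgroup.nontrivial_iff_ne_bot _).2 hb
    have hlt := Group.IsSolvable.commutator_lt_top_of_nontrivial N
    have hC : (commutator N).map N.subtype ≤ center M := by
      haveI : ((commutator N).map N.subtype).Normal := ConjAct.normal_of_characteristic_of_normal
      apply ih _ inferInstance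
      · exact Group.isSolvable_of_surjective (f := (N.subtype.subgroupMap (commutator N))) (MonoidHom.subgroupMap_surjective _ _)
      · have h1 : Nat.card ((commutator N).map N.subtype) = Nat.card (commutator N) :=
          Nat.card_congr ((commutator N).equivMapOfInjective N.subtype N.subtype_injective).symm.toEquiv
        have h2 : Nat.card (commutator N) < Nat.card N := by
          refine lt_of_le_of_ne (Nat.card_le_card_of_injective _ (commutator N).subtype_injective) (fun h => ?_)
          exact hlt.ne (eq_top_of_card_eq _ h)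
        omega
    have hnil : Group.IsNilpotent N := by
      refine Subgroup.isNilpotent_of_ker_le_center (Abelianization.of : N →* Abelianization N) ?_
      rw [Abelianization.ker_of]
      intro x hx
      rw [mem_center_iff]
      intro g
      apply Subtype.ext
      exact mem_center_iff.1 (hC ⟨x, hx, rfl⟩) g.1
    have hsyl : ∀ (r : ℕ) [Fact r.Prime] (S : Sylow r N), (S : Subgroup N) ≤ (center M).subgroupOf N := by
      intro r hr S
      haveI : (S : Subgroup N).Normal := ((Group.isNilpotent_of_finite_tfae (G := N)).out 0 3 rfl rfl).1 hnil r hr S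
      haveI := S.characteristic_of_normal this
      have h1 : ((S : Subgroup N).map N.subtype).Normal := ConjAct.normal_of_characteristic_of_normal
      have h2 := D.pcore hr.out h1 (S.2.map _)
      intro x hx
      exact h2 ⟨x, hx, rfl⟩
    have htop : (center M).subgroupOf N = ⊤ := by
      apply eq_top_of_card_eq
      apply Nat.dvd_antisymm (card_subgroup_dvd_card _)
      rw [Nat.dvd_iff_prime_pow_dvd_dvd]
      intro r k hr hk
      haveI := Fact.mk hr
      have h1 := (default : Sylow r N).pow_dvd_card_of_pow_dvd_card hk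
      exact h1.trans (card_dvd_of_le (hsyl r _))
    intro x hx
    have : (⟨x, hx⟩ : N) ∈ (center M).subgroupOf N := by rw [htop]; trivial
    exact this

/-- an isolated involution of a normal subgroup -/
theorem Dat.isolated (D : Dat K q) {N : Subgroup M} (hN : N.Normal) {t : M} (htN : t ∈ N) (ht : orderOf t = 2)
    (h : ∀ u ∈ N, orderOf u = 2 → u * t = t * u → u = t) : False := by
  haveI := Fact.mk Nat.prime_two
  have hsq : t * t = 1 := by rw [← pow_two, ← ht, pow_orderOf_eq_one]
  let t' : N := ⟨t, htN⟩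
  have ht' : orderOf t' = 2 := by rw [← ht]; exact (orderOf_coe t').symm
  obtain ⟨P, hP⟩ : ∃ P : Sylow 2 N, t' ∈ P := by
    have h1 : IsPGroup 2 (zpowers t') := IsPGroup.of_card (n := 1) (by rw [Nat.card_zpowers, ht', pow_one])
    obtain ⟨P, hP⟩ := h1.exists_le_sylow
    exact ⟨P, hP (mem_zpowers t')⟩
  -- the centre of `P`
  have hcen : ∀ x ∈ (P : Subgroup N), x * t' = t' * x := by
    have hne : (P : Subgroup N) ≠ ⊥ := by
      intro hb
      have : t' ∈ (P : Subgroup N) := hP
      rw [hb, mem_bot] at this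
      rw [this, orderOf_one] at ht'
      omega
    haveI : Nontrivial (P : Subgroup N) := (Subgroup.nontrivial_iff_ne_bot _).2 hne
    haveI := P.2.center_nontrivial
    obtain ⟨u, hu⟩ : ∃ u : center (P : Subgroup N), orderOf u = 2 := by
      obtain ⟨n, hn⟩ := (P.2.to_subgroup (center (P : Subgroup N))).exists_card_eq
      have hn0 : n ≠ 0 := by
        rintro rfl
        rw [pow_zero, Nat.card_eq_one_iff_unique] at hn
        exact not_subsingleton _ hn.1
      exact exists_prime_orderOf_dvd_card' 2 (hn ▸ dvd_pow_self 2 hn0)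
    have hu2 : orderOf (((u : (P : Subgroup N)) : N) : M) = 2 := by
      rw [orderOf_coe, orderOf_coe, orderOf_coe]
      exact hu
    have hc : ∀ x ∈ (P : Subgroup N), x * ((u : (P : Subgroup N)) : N) = ((u : (P : Subgroup N)) : N) * x := by
      intro x hx
      exact congrArg Subtype.val (mem_center_iff.1 u.2 ⟨x, hx⟩)
    have he : ((u : (P : Subgroup N)) : N) = t' := by
      apply Subtype.ext
      apply h _ ((u : (P : Subgroup N)) : N).2 hu2
      exact (congrArg Subtype.val (hc t' hP)).symm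
    intro x hx
    have := hc x hx
    rwa [he] at this
  obtain ⟨O, hO, hodd, hcomm⟩ := S0215.result P t' ht' hP (by
    intro g hg
    have h1 := hcen _ hg
    apply Subtype.ext
    apply h _ (g * t' * g⁻¹).2
    · have h2 : orderOf (((g * t' * g⁻¹ : N) : M)) = orderOf (g * t' * g⁻¹) := orderOf_coe _
      rw [h2, ord_conj, ht']
    · exact congrArg Subtype.val h1)
  -- the odd core
  haveI hch := Lib.Cores.pPrimeCore_characteristic (G := N) 2
  have hOc : O ≤ pPrimeCore 2 N := OddOrderLocal.PLengthOne.le_pPrimeCore hO (Nat.coprime_two_right.2 hodd)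
  have hcc := OddOrderLocal.PLengthOne.card_pPrimeCore_coprime (G := N) 2
  haveI hn1 : ((pPrimeCore 2 N).map N.subtype).Normal := ConjAct.normal_of_characteristic_of_normal
  have hcard : Nat.card ((pPrimeCore 2 N).map N.subtype) = Nat.card (pPrimeCore 2 N) :=
    Nat.card_congr ((pPrimeCore 2 N).equivMapOfInjective N.subtype N.subtype_injective).symm.toEquiv
  have hodd1 : Odd (Nat.card ((pPrimeCore 2 N).map N.subtype)) := by
    rw [hcard]
    exact Nat.coprime_two_right.1 hcc
  have hle := D.solv _ _ hn1 (S0205.result hodd1) le_rfl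
  -- `t` is central in `N`
  have htc : ∀ g ∈ N, t * g = g * t := by
    intro g hg
    have h1 : t * g * t⁻¹ * g⁻¹ ∈ (pPrimeCore 2 N).map N.subtype := ⟨_, hOc (hcomm ⟨g, hg⟩), rfl⟩
    have h2 := mem_center_iff.1 (hle h1)
    have hinv : t⁻¹ = t := inv_eq_of_mul_eq_one_right hsq
    have h3 : (t * g * t⁻¹ * g⁻¹) ^ 2 = 1 := by
      have e1 : t * g * t⁻¹ = (t * g * t⁻¹ * g⁻¹) * g := by group
      have e2 : g = t * (t * g * t⁻¹) * t⁻¹ := by
        rw [hinv]
        calc g = (t * t) * g * (t * t) := by rw [hsq, one_mul, mul_one]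
          _ = _ := by group
      generalize t * g * t⁻¹ * g⁻¹ = c at e1 h2
      rw [e1] at e2
      have e3 : t * (c * g) * t⁻¹ = c * (t * g * t⁻¹) := by
        calc t * (c * g) * t⁻¹ = (t * c) * g * t⁻¹ := by group
          _ = (c * t) * g * t⁻¹ := by rw [h2 t]
          _ = _ := by group
      rw [e3, e1] at e2
      have e4 : c * c * g = 1 * g := by rw [one_mul, mul_assoc, ← e2]
      rw [pow_two]
      exact mul_right_cancel e4
    have h4 : t * g * t⁻¹ * g⁻¹ = 1 := by
      have h5 : orderOf (⟨_, h1⟩ : (pPrimeCore 2 N).map N.subtype) ∣ 2 := by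
        apply orderOf_dvd_of_pow_eq_one
        exact Subtype.ext h3
      have h6 := orderOf_dvd_natCard (⟨_, h1⟩ : (pPrimeCore 2 N).map N.subtype)
      rcases (Nat.dvd_prime Nat.prime_two).1 h5 with h7 | h7
      · exact congrArg Subtype.val (orderOf_eq_one_iff.1 h7)
      · rw [h7] at h6
        exact absurd h6 (by rw [← even_iff_two_dvd]; exact Nat.not_even_iff_odd.2 hodd1)
    calc t * g = (t * g * t⁻¹ * g⁻¹) * g * t := by group
      _ = g * t := by rw [h4, one_mul]
  refine D.no_unique ht (fun x => ?_)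
  have h1 : x * t * x⁻¹ = t := by
    have h2 : x * t * x⁻¹ ∈ N := hN.conj_mem _ htN _
    exact h _ h2 (by rw [ord_conj, ht]) (htc _ h2).symm
  calc x * t = x * t * x⁻¹ * x := by group
    _ = t * x := by rw [h1]

theorem Dat.key (D : Dat K q) {N : Subgroup M} (hN : N.Normal) (h : ¬ N ≤ center M) : N = ⊤ := by
  haveI := Fact.mk Nat.prime_two
  have hns : ¬ Group.IsSolvable N := fun hs => h (D.solv _ N hN hs le_rfl)
  have heven : 2 ∣ Nat.card N := by
    by_contra hodd
    apply hns
    apply S0205.result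
    rw [← even_iff_two_dvd, Nat.not_even_iff_odd] at hodd
    exact hodd
  obtain ⟨t0, ht0⟩ := exists_prime_orderOf_dvd_card' 2 heven
  have ht0' : orderOf (t0 : M) = 2 := by rw [orderOf_coe, ht0]
  have hsq0 : (t0 : M) * t0 = 1 := by rw [← pow_two, ← ht0', pow_orderOf_eq_one]
  apply D.gen
  intro z hz
  have hzsq : z * z = 1 := by rw [← pow_two, ← hz, pow_orderOf_eq_one]
  rcases D.inf_le hz hN with hle | hle
  swap
  · exact hle
  exfalso
  have hcent : ∀ u ∈ N, orderOf u = 2 → u * z = z * u → u = z := by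
    intro u huN hu huz
    exact D.uniq z hz u hu (D.cent hz hN hle huN huz)
  -- `z` fixes an involution of `N`
  have hoddN := Cfsg.Agent.HKS.TwoOne.odd_ncard_invol N ⟨t0, t0.2, fun h1 => by
    rw [h1, orderOf_one] at ht0'; omega, hsq0⟩
  obtain ⟨u, hu, hzu⟩ := Cfsg.Agent.H847.IF.exists_fixed (G := ConjAct M) (Ω := M) _ (Set.toFinite _) hoddN
    (ConjAct.toConjAct z) (by rw [← ConjAct.toConjAct_mul, hzsq, ConjAct.toConjAct_one]) (by
      rintro x ⟨hx, hx1, hx2⟩
      rw [ConjAct.toConjAct_smul]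
      refine ⟨hN.conj_mem _ hx _, fun h1 => hx1 ?_, ?_⟩
      · calc x = z⁻¹ * (z * x * z⁻¹) * z := by group
          _ = 1 := by rw [h1]; group
      · calc z * x * z⁻¹ * (z * x * z⁻¹) = z * (x * x) * z⁻¹ := by group
          _ = 1 := by rw [hx2]; group)
  obtain ⟨huN, hu1, hu2⟩ := hu
  have hu2' : orderOf u = 2 := orderOf_eq_prime (by rw [pow_two, hu2]) hu1
  rw [ConjAct.toConjAct_smul] at hzu
  have huz : u * z = z * u := by
    calc u * z = z * u * z⁻¹ * z := by rw [hzu]
      _ = z * u := by group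
  have he := hcent u huN hu2' huz
  rw [he] at huN
  exact D.isolated hN huN hz hcent

theorem Dat.odd_center (D : Dat K q) : Odd (Nat.card (center M)) := by
  haveI := Fact.mk Nat.prime_two
  rw [← Nat.not_even_iff_odd, even_iff_two_dvd]
  intro h
  obtain ⟨t, ht⟩ := exists_prime_orderOf_dvd_card' 2 h
  refine D.no_unique (t := (t : M)) (by rw [orderOf_coe, ht]) (fun x => mem_center_iff.1 t.2 x)

/-- **`M / Z(M)` is simple** -/
theorem Dat.simple (D : Dat K q) : IsSimpleGroup (M ⧸ center M) ∧ ¬ ∀ a b : M ⧸ center M, a * b = b * a := by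
  obtain ⟨s, z, hs, hz, hsz, hne⟩ := D.two
  have hcen : center M ≠ ⊤ := by
    intro h
    have h1 : ⁅K z, K z⁆ = ⊥ := by
      rw [commutator_eq_bot_iff_le_centralizer]
      intro x _
      rw [mem_centralizer_iff]
      intro y _
      have : x ∈ center M := by rw [h]; trivial
      exact mem_center_iff.1 this y
    rw [D.perf z hz] at h1
    have h2 := D.mem z hz
    rw [h1, mem_bot] at h2
    rw [h2, orderOf_one] at hz
    omega
  haveI : Nontrivial (M ⧸ center M) := by
    rw [← not_subsingleton_iff_nontrivial]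
    intro h
    exact hcen (QuotientGroup.subgroup_eq_top_of_subsingleton _ h)
  constructor
  · refine ⟨fun N hN => ?_⟩
    have h1 : (N.comap (QuotientGroup.mk' (center M))).Normal := hN.comap _
    by_cases h2 : N.comap (QuotientGroup.mk' (center M)) ≤ center M
    · left
      rw [eq_bot_iff_forall]
      intro x hx
      obtain ⟨y, rfl⟩ := QuotientGroup.mk'_surjective (center M) x
      exact (QuotientGroup.eq_one_iff y).2 (h2 hx)
    · right
      have h3 := D.key h1 h2
      rw [eq_top_iff']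
      intro x
      obtain ⟨y, rfl⟩ := QuotientGroup.mk'_surjective (center M) x
      have : y ∈ N.comap (QuotientGroup.mk' (center M)) := by rw [h3]; trivial
      exact this
  · intro hc
    have h1 : ⁅K z, K z⁆ ≤ center M := by
      rw [commutator_le]
      intro a _ b _
      show a * b * a⁻¹ * b⁻¹ ∈ center M
      rw [← QuotientGroup.eq_one_iff]
      have := hc (a : M ⧸ center M) (b : M ⧸ center M)
      rw [QuotientGroup.mk_mul, QuotientGroup.mk_mul, QuotientGroup.mk_mul, QuotientGroup.mk_inv, QuotientGroup.mk_inv, this]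
      group
    rw [D.perf z hz] at h1
    exact D.no_unique hz (fun x => mem_center_iff.1 (h1 (D.mem z hz)) x)

end Main

end Cfsg.Agent.H753.IFx
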