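import Cfsg.Agent.H753.IF.Abs
import Cfsg.Agent.Cit.HexCore
import Cfsg.Agent.GTwoOdd.SLNormal
import Cfsg.Agent.H16.BR.Idx
import Cfsg.Agent.H982.TWModel

/-!
# S5719, `³D₄(q)`, `q` odd, 2-rank at least 2: from the `HexGrp` frame to `Dat` (helper753)
-/

set_option autoImplicit false
set_option linter.unusedSectionVars false
set_option linter.style.haveILetI false

namespace Cfsg.Agent.H753.IFx

open Subgroup Cfsg.Agent.GTwoOdd
open Cfsg.Agent.Cit.HexBase (HexGrp fx)

/-! ### arithmetic -/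

theorem pow_le_of_dvd {q r k : ℕ} (hq : IsPrimePow q) (hodd : Odd q) (hr : r.Prime) (hr2 : r ≠ 2)
    (h : r ^ k ∣ q * (q ^ 2 - 1)) : r ^ k ≤ q := by
  have hq1 := hq.one_lt
  have e1 : q ^ 2 - 1 = (q - 1) * (q + 1) := by
    obtain ⟨m, rfl⟩ : ∃ m, q = m + 1 := ⟨q - 1, by omega⟩
    have : m + 1 - 1 = m := by omega
    rw [this]
    apply Nat.sub_eq_of_eq_add
    ring
  rw [e1] at h
  by_cases h1 : r ∣ q
  · -- `r ∣ q`
    have h2 : Nat.Coprime (r ^ k) ((q - 1) * (q + 1)) := by
      refine Nat.Coprime.pow_left k ?_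
      refine Nat.Coprime.mul_right ?_ ?_
      · rw [Nat.Prime.coprime_iff_not_dvd hr]
        intro h3
        have h4 := Nat.dvd_sub h1 h3
        rw [show q - (q - 1) = 1 by omega] at h4
        exact hr.one_lt.ne' (Nat.dvd_one.1 h4)
      · rw [Nat.Prime.coprime_iff_not_dvd hr]
        intro h3
        have h4 := Nat.dvd_sub h3 h1
        rw [show q + 1 - q = 1 by omega] at h4
        exact hr.one_lt.ne' (Nat.dvd_one.1 h4)
    exact Nat.le_of_dvd (by omega) (h2.dvd_of_dvd_mul_right h)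
  · have h2 : Nat.Coprime (r ^ k) q := ((Nat.Prime.coprime_iff_not_dvd hr).2 h1).pow_left k
    have h3 : r ^ k ∣ (q - 1) * (q + 1) := h2.dvd_of_dvd_mul_left h
    by_cases h4 : r ∣ q - 1
    · have h5 : Nat.Coprime (r ^ k) (q + 1) := by
        refine Nat.Coprime.pow_left k ?_
        rw [Nat.Prime.coprime_iff_not_dvd hr]
        intro h6
        have h7 := Nat.dvd_sub h6 h4
        rw [show q + 1 - (q - 1) = 2 by omega] at h7
        exact hr2 ((Nat.prime_dvd_prime_iff_eq hr Nat.prime_two).1 h7)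
      have h6 := Nat.le_of_dvd (by omega) (h5.dvd_of_dvd_mul_right h3)
      omega
    · have h5 : Nat.Coprime (r ^ k) (q - 1) := ((Nat.Prime.coprime_iff_not_dvd hr).2 h4).pow_left k
      have h6 : r ^ k ∣ q + 1 := h5.dvd_of_dvd_mul_left h3
      obtain ⟨m, hm⟩ := h6
      have h7 : Even (q + 1) := hodd.add_one
      have h8 : Odd (r ^ k) := (hr.odd_of_ne_two hr2).pow
      have h9 : Even m := by
        by_contra h10
        rw [Nat.not_even_iff_odd] at h10
        rw [hm] at h7
        exact (Nat.not_even_iff_odd.2 (h8.mul h10)) h7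
      obtain ⟨l, hl⟩ := h9
      have hl0 : 0 < l := by
        rcases Nat.eq_zero_or_pos l with h10 | h10
        · rw [hl, h10] at hm; omega
        · exact h10
      rw [hl] at hm
      nlinarith [Nat.pos_of_ne_zero (pow_ne_zero k hr.pos.ne')]

section SL

variable {F : Type} [Field F] [Fintype F] {M : Type*} [Group M]

theorem sl_perf (h4 : 4 ≤ Fintype.card F) (φ : Matrix.SpecialLinearGroup (Fin 2) F →* M) :
    ⁅φ.range, φ.range⁆ = φ.range := by
  have h1 := Cfsg.Agent.H982.TWModel.perfect_two (F := F) h4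
  rw [commutator_def] at h1
  rw [MonoidHom.range_eq_map, ← map_commutator, h1]

theorem sl_quasi (hodd : Odd (Fintype.card F)) (h3 : 3 < Fintype.card F)
    (φ : Matrix.SpecialLinearGroup (Fin 2) F →* M) {N : Subgroup M} (hN : N ≤ φ.range)
    (hn : ∀ k ∈ φ.range, ∀ n ∈ N, k * n * k⁻¹ ∈ N) : N ≤ zpowers (φ (-1)) ∨ N = φ.range := by
  have hnorm : (N.comap φ).Normal := by
    refine ⟨fun x hx g => ?_⟩
    show φ (g * x * g⁻¹) ∈ N
    rw [map_mul, map_mul, map_inv]
    exact hn _ ⟨g, rfl⟩ _ hx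
  by_cases h : ∃ x, x ∈ N.comap φ ∧ x ∉ center (Matrix.SpecialLinearGroup (Fin 2) F)
  · right
    obtain ⟨x, hx, hxc⟩ := h
    have h1 := SLNormal.eq_top h3 (N.comap φ) hx hxc
    apply le_antisymm hN
    rintro _ ⟨y, rfl⟩
    have : y ∈ N.comap φ := by rw [h1]; trivial
    exact this
  · left
    push Not at h
    intro y hy
    obtain ⟨x, rfl⟩ := hN hy
    rcases SLNormal.mem_center_cases hodd (h x hy) with rfl | rfl
    · rw [map_one]; exact one_mem _
    · exact mem_zpowers _

theorem sl_idx (h12 : 12 ≤ Fintype.card F) (φ : Matrix.SpecialLinearGroup (Fin 2) F →* M) {X : Subgroup M}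
    (h : X.relIndex φ.range ≤ Fintype.card F) : φ.range ≤ X := by
  rw [← index_comap] at h
  by_contra hne
  have h1 : X.comap φ ≠ ⊤ := by
    intro h2
    apply hne
    rintro _ ⟨y, rfl⟩
    have : y ∈ X.comap φ := by rw [h2]; trivial
    exact this
  have := Cfsg.Agent.H16.BR.idx_sl_two h12 h1
  omega

end SL

end Cfsg.Agent.H753.IFx
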