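import Cfsg.Agent.H753.IF.Frame
import Cfsg.Agent.Cit.HexD4

/-!
# S5719, `³D₄(q)`, `q` odd, 2-rank at least 2: the subgroup generated by the short `SL₂(q³)` (helper753)
-/

set_option autoImplicit false
set_option linter.unusedSectionVars false
set_option linter.style.haveILetI false

namespace Cfsg.Agent.H753.IFx

open Subgroup Cfsg.Agent.GTwoOdd
open Cfsg.Agent.Cit.HexBase (HexGrp fx)

local notation "SL2" => Matrix.SpecialLinearGroup (Fin 2)

section Hex

variable {E : Type} [Field E] [Fintype E] {σ : E ≃+* E} {L : Type*} [Group L] (c : HexGrp σ L)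

theorem pb_neg_one : c.pb (-1) = c.z := by
  have h : (Cfsg.Agent.Lib.SL2Mat.dg (-1) (neg_ne_zero.2 one_ne_zero) : SL2 E) = -1 := by
    apply Subtype.ext
    ext i j
    fin_cases i <;> fin_cases j <;> simp [Cfsg.Agent.Lib.SL2Mat.dg, Cfsg.Agent.Lib.SL2Mat.mk]
  rw [← h]
  rfl

/-- the conjugate embedding -/
def emb (g : L) : SL2 E →* L := (MulAut.conj g).toMonoidHom.comp c.pb

theorem emb_apply (g : L) (x : SL2 E) : emb c g x = g * c.pb x * g⁻¹ := rfl

theorem emb_inj (h2 : (2 : E) ≠ 0) (g : L) : Function.Injective (emb c g) :=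
  (MulAut.conj g).injective.comp (c.pb_inj h2)

theorem emb_neg_one (g : L) : emb c g (-1) = g * c.z * g⁻¹ := by rw [emb_apply, pb_neg_one]

theorem emb_conj (h2 : (2 : E) ≠ 0) {g k : L} (hk : k * (g * c.z * g⁻¹) = g * c.z * g⁻¹ * k) (x : SL2 E) :
    ∃ x', k * emb c g x * k⁻¹ = emb c g x' := by
  have h1 : (g⁻¹ * k * g) * c.z = c.z * (g⁻¹ * k * g) := by
    calc (g⁻¹ * k * g) * c.z = g⁻¹ * (k * (g * c.z * g⁻¹)) * g := by group
      _ = g⁻¹ * (g * c.z * g⁻¹ * k) * g := by rw [hk]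
      _ = _ := by group
  obtain ⟨x', hx'⟩ := c.CZ_pb h2 h1 x
  refine ⟨x', ?_⟩
  rw [emb_apply, emb_apply, ← hx']
  group

theorem range_le {g g' : L} (h2 : (2 : E) ≠ 0) (h : g * c.z * g⁻¹ = g' * c.z * g'⁻¹) :
    (emb c g).range ≤ (emb c g').range := by
  rintro _ ⟨x, rfl⟩
  have h1 : (g'⁻¹ * g) * c.z = c.z * (g'⁻¹ * g) := by
    calc (g'⁻¹ * g) * c.z = g'⁻¹ * (g * c.z * g⁻¹) * g := by group
      _ = g'⁻¹ * (g' * c.z * g'⁻¹) * g := by rw [h]
      _ = _ := by group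
  obtain ⟨x', hx'⟩ := c.CZ_pb h2 h1 x
  refine ⟨x', ?_⟩
  rw [emb_apply, emb_apply, ← hx']
  group

theorem range_eq {g g' : L} (h2 : (2 : E) ≠ 0) (h : g * c.z * g⁻¹ = g' * c.z * g'⁻¹) :
    (emb c g).range = (emb c g').range := le_antisymm (range_le c h2 h) (range_le c h2 h.symm)

/-- the short `SL₂` of an involution -/
def KO (t : L) : Subgroup L := ⨆ g : {g : L // g * c.z * g⁻¹ = t}, (emb c g.1).range

theorem KO_eq (h2 : (2 : E) ≠ 0) {g t : L} (h : g * c.z * g⁻¹ = t) : KO c t = (emb c g).range := by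
  apply le_antisymm
  · refine iSup_le (fun g' => ?_)
    exact range_le c h2 (g'.2.trans h.symm)
  · exact le_iSup (fun g' : {g : L // g * c.z * g⁻¹ = t} => (emb c g'.1).range) ⟨g, h⟩

theorem exists_conj [Finite L] (h2 : (2 : E) ≠ 0) {t : L} (ht : orderOf t = 2) : ∃ g, g * c.z * g⁻¹ = t := by
  have h1 : t * t = 1 := by rw [← pow_two, ← ht, pow_orderOf_eq_one]
  have h3 : t ≠ 1 := by rintro rfl; rw [orderOf_one] at ht; omega
  exact isConj_iff.1 (c.isConj_z h2 h1 h3).symm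

theorem orderOf_z (h2 : (2 : E) ≠ 0) : orderOf c.z = 2 :=
  orderOf_eq_prime (by rw [pow_two, c.z_sq]) (c.z_ne h2)

theorem order_conj (h2 : (2 : E) ≠ 0) (g : L) : orderOf (g * c.z * g⁻¹) = 2 := by
  rw [ord_conj, orderOf_z c h2]

/-- an element centralising the short `SL₂` is in the long one -/
theorem cent_emb (h2 : (2 : E) ≠ 0) {g t : L} (h : ∀ x, t * emb c g x = emb c g x * t) : g⁻¹ * t * g ∈ c.K4 := by
  apply c.centralizer_K1 h2
  intro x
  have := h x
  rw [emb_apply] at this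
  calc g⁻¹ * t * g * c.pb x = g⁻¹ * (t * (g * c.pb x * g⁻¹)) * g := by group
    _ = g⁻¹ * (g * c.pb x * g⁻¹ * t) * g := by rw [this]
    _ = _ := by group

theorem uniq_emb (h2 : (2 : E) ≠ 0) {g t : L} (ht : orderOf t = 2) (h : ∀ x, t * emb c g x = emb c g x * t) :
    t = g * c.z * g⁻¹ := by
  obtain ⟨y, hy⟩ := cent_emb c h2 h
  have h1 : t * t = 1 := by rw [← pow_two, ← ht, pow_orderOf_eq_one]
  have h3 : t ≠ 1 := by rintro rfl; rw [orderOf_one] at ht; omega
  have h4 : c.p4 y * c.p4 y = 1 := by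
    rw [hy]
    calc g⁻¹ * t * g * (g⁻¹ * t * g) = g⁻¹ * (t * t) * g := by group
      _ = 1 := by rw [h1]; group
  rcases c.p4_sq h2 h4 with h5 | h5
  · exfalso
    apply h3
    rw [hy] at h5
    calc t = g * (g⁻¹ * t * g) * g⁻¹ := by group
      _ = 1 := by rw [h5]; group
  · rw [hy] at h5
    rw [← h5]
    group

end Hex

/-- the subgroup generated by the short `SL₂` of the involutions of `A` -/
def MM {E : Type} [Field E] {σ : E ≃+* E} {L : Type*} [Group L] (c : HexGrp σ L) (A : Subgroup L) : Subgroup L :=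
  closure {y | ∃ g x, g * c.z * g⁻¹ ∈ A ∧ y = emb c g x}

section Dat

variable {E : Type} [Field E] [Fintype E] {σ : E ≃+* E} {L : Type*} [Group L] [Finite L] (c : HexGrp σ L)
  {A : Subgroup L}

theorem emb_mem_MM {g : L} (h : g * c.z * g⁻¹ ∈ A) (x : SL2 E) : emb c g x ∈ MM c A :=
  subset_closure ⟨g, x, h, rfl⟩

theorem MM_le (hk : ∀ g, g * c.z * g⁻¹ ∈ A → ∀ x, emb c g x ∈ A) : MM c A ≤ A := by
  rw [MM, closure_le]
  rintro _ ⟨g, x, h, rfl⟩
  exact hk g h x

/-- the embedding into `MM` -/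
def phi {g : L} (h : g * c.z * g⁻¹ ∈ A) : SL2 E →* MM c A := (emb c g).codRestrict (MM c A) (emb_mem_MM c h)

theorem phi_coe {g : L} (h : g * c.z * g⁻¹ ∈ A) (x : SL2 E) : (phi c h x : L) = emb c g x := rfl

theorem phi_inj (h2 : (2 : E) ≠ 0) {g : L} (h : g * c.z * g⁻¹ ∈ A) : Function.Injective (phi c h) := by
  intro x y hxy
  exact emb_inj c h2 g (congrArg Subtype.val hxy)

theorem phi_range (h2 : (2 : E) ≠ 0) {g : L} (h : g * c.z * g⁻¹ ∈ A) :
    (KO c (g * c.z * g⁻¹)).subgroupOf (MM c A) = (phi c h).range := by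
  rw [KO_eq c h2 rfl]
  ext y
  rw [mem_subgroupOf]
  constructor
  · rintro ⟨x, hx⟩
    exact ⟨x, Subtype.ext hx⟩
  · rintro ⟨x, rfl⟩
    exact ⟨x, rfl⟩

theorem exists_phi (h2 : (2 : E) ≠ 0) (hk : ∀ g, g * c.z * g⁻¹ ∈ A → ∀ x, emb c g x ∈ A) {z : MM c A}
    (hz : orderOf z = 2) : ∃ (g : L) (h : g * c.z * g⁻¹ ∈ A), phi c h (-1) = z ∧
      (KO c z).subgroupOf (MM c A) = (phi c h).range := by
  have hz' : orderOf (z : L) = 2 := by rw [orderOf_coe, hz]
  obtain ⟨g, hg⟩ := exists_conj c h2 hz'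
  have hA : g * c.z * g⁻¹ ∈ A := by rw [hg]; exact MM_le c hk z.2
  refine ⟨g, hA, ?_, ?_⟩
  · apply Subtype.ext
    rw [phi_coe, emb_neg_one, hg]
  · rw [← hg]
    exact phi_range c h2 hA

theorem dat {q : ℕ} (h2 : (2 : E) ≠ 0) (hq : IsPrimePow q) (hodd : Odd q) (hE : Fintype.card E = q ^ 3)
    (hF : Nat.card ↥(fx σ) = q) (hk : ∀ g, g * c.z * g⁻¹ ∈ A → ∀ x, emb c g x ∈ A)
    (htwo : ∃ s ∈ A, ∃ t ∈ A, orderOf s = 2 ∧ orderOf t = 2 ∧ s * t = t * s ∧ s ≠ t) :
    Dat (M := MM c A) (fun z => (KO c (z : L)).subgroupOf (MM c A)) q := by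
  have hq1 := hq.one_lt
  have hq3 : 3 ≤ q := by obtain ⟨k, hk⟩ := hodd; omega
  have hE27 : 27 ≤ Fintype.card E := by
    rw [hE]
    calc 27 = 3 ^ 3 := by norm_num
      _ ≤ q ^ 3 := Nat.pow_le_pow_left hq3 3
  have hEodd : Odd (Fintype.card E) := by rw [hE]; exact hodd.pow
  constructor
  · intro z hz
    obtain ⟨g, hA, h1, h3⟩ := exists_phi c h2 hk hz
    show z ∈ (KO c (z : L)).subgroupOf (MM c A)
    rw [h3, ← h1]
    exact ⟨_, rfl⟩
  · intro z hz k hkk
    obtain ⟨g, hA, h1, h3⟩ := exists_phi c h2 hk hz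
    have hkk' : k ∈ (KO c (z : L)).subgroupOf (MM c A) := hkk
    rw [h3] at hkk'
    obtain ⟨x, rfl⟩ := hkk'
    rw [← h1, ← map_mul, ← map_mul]
    congr 1
    simp
  · intro z hz k hkz y hy
    obtain ⟨g, hA, h1, h3⟩ := exists_phi c h2 hk hz
    have hy' : y ∈ (KO c (z : L)).subgroupOf (MM c A) := hy
    show k * y * k⁻¹ ∈ (KO c (z : L)).subgroupOf (MM c A)
    rw [h3] at hy' ⊢
    obtain ⟨x, rfl⟩ := hy'
    have h4 : (z : L) = g * c.z * g⁻¹ := by rw [← h1, phi_coe, emb_neg_one]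
    obtain ⟨x', hx'⟩ := emb_conj c h2 (g := g) (k := (k : L)) (by rw [← h4]; exact congrArg Subtype.val hkz) x
    exact ⟨x', Subtype.ext hx'.symm⟩
  · intro z hz
    obtain ⟨g, hA, h1, h3⟩ := exists_phi c h2 hk hz
    show ⁅(KO c (z : L)).subgroupOf (MM c A), (KO c (z : L)).subgroupOf (MM c A)⁆ = _
    rw [h3]
    exact sl_perf (by omega) _
  · intro z hz N hN hn
    obtain ⟨g, hA, h1, h3⟩ := exists_phi c h2 hk hz
    have h3' : (KO c (z : L)).subgroupOf (MM c A) = (phi c hA).range := h3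
    show N ≤ zpowers z ∨ N = (KO c (z : L)).subgroupOf (MM c A)
    rw [h3', ← h1]
    apply sl_quasi hEodd (by omega)
    · rw [← h3']; exact hN
    · rw [← h3']; exact hn
  · intro z hz t ht h
    obtain ⟨g, hA, h1, h3⟩ := exists_phi c h2 hk hz
    have h4 : ∀ x, (t : L) * emb c g x = emb c g x * (t : L) := by
      intro x
      have : phi c hA x ∈ (KO c (z : L)).subgroupOf (MM c A) := by rw [h3]; exact ⟨x, rfl⟩
      exact congrArg Subtype.val (h _ this)
    apply Subtype.ext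
    rw [uniq_emb c h2 (by rw [orderOf_coe, ht]) h4, ← h1, phi_coe, emb_neg_one]
  · intro N hN
    have h1 : MM c A ≤ N.map (MM c A).subtype := by
      refine (closure_le _).2 ?_
      rintro _ ⟨g, x, h, rfl⟩
      have hord : orderOf (phi c h (-1)) = 2 := by
        rw [← orderOf_coe, phi_coe, emb_neg_one, order_conj c h2]
      have h3 := hN _ hord
      have h4 : phi c h x ∈ (KO c ((phi c h (-1) : MM c A) : L)).subgroupOf (MM c A) := by
        rw [phi_coe, emb_neg_one, phi_range c h2 h]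
        exact ⟨x, rfl⟩
      exact ⟨_, h3 h4, rfl⟩
    rw [eq_top_iff']
    intro y
    obtain ⟨y', hy', he⟩ := h1 y.2
    have : y' = y := Subtype.ext he
    rwa [← this]
  · obtain ⟨s, hs, t, ht, hs2, ht2, hst, hne⟩ := htwo
    have hmem : ∀ s ∈ A, orderOf s = 2 → s ∈ MM c A := by
      intro s hs hs2
      obtain ⟨g, hg⟩ := exists_conj c h2 hs2
      rw [← hg, ← emb_neg_one]
      exact emb_mem_MM c (by rw [hg]; exact hs) _
    refine ⟨⟨s, hmem s hs hs2⟩, ⟨t, hmem t ht ht2⟩, ?_, ?_, Subtype.ext hst, fun h => hne (congrArg Subtype.val h)⟩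
    · rw [← orderOf_coe]; exact hs2
    · rw [← orderOf_coe]; exact ht2
  · intro z hz r hr hr2 R hR h
    obtain ⟨g, hA, h1, h3⟩ := exists_phi c h2 hk hz
    haveI := Fact.mk hr
    obtain ⟨k, hk'⟩ := hR.exists_card_eq
    rw [hk']
    apply pow_le_of_dvd hq hodd hr hr2
    rw [← hk']
    haveI : Finite ↥(fx σ) := Subtype.finite
    haveI := Fintype.ofFinite ↥(fx σ)
    have hcard : Nat.card (SL2 ↥(fx σ)) = q * (q ^ 2 - 1) := by
      rw [SLNormal.card_sl, ← Nat.card_eq_fintype_card, hF]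
    have hK4 : Nat.card c.K4 = q * (q ^ 2 - 1) := by
      rw [← hcard]
      exact Nat.card_congr c.equivK4.symm.toEquiv
    rw [← hK4]
    let ψ : R →* c.K4 :=
      { toFun := fun y => ⟨g⁻¹ * ((y : MM c A) : L) * g, cent_emb c h2 (fun x => by
          have : phi c hA x ∈ (KO c (z : L)).subgroupOf (MM c A) := by rw [h3]; exact ⟨x, rfl⟩
          exact congrArg Subtype.val (h _ y.2 _ this))⟩
        map_one' := by apply Subtype.ext; simp
        map_mul' := by
          intro a b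
          apply Subtype.ext
          show g⁻¹ * (((a * b : R) : MM c A) : L) * g = g⁻¹ * ((a : MM c A) : L) * g * (g⁻¹ * ((b : MM c A) : L) * g)
          rw [coe_mul, coe_mul]
          group }
    apply Subgroup.card_dvd_of_injective ψ
    intro a b hab
    have h5 : g⁻¹ * ((a : MM c A) : L) * g = g⁻¹ * ((b : MM c A) : L) * g := congrArg Subtype.val hab
    apply Subtype.ext
    apply Subtype.ext
    calc ((a : MM c A) : L) = g * (g⁻¹ * ((a : MM c A) : L) * g) * g⁻¹ := by group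
      _ = g * (g⁻¹ * ((b : MM c A) : L) * g) * g⁻¹ := by rw [h5]
      _ = _ := by group
  · intro z hz X hX
    obtain ⟨g, hA, h1, h3⟩ := exists_phi c h2 hk hz
    have hX' : X.relIndex ((KO c (z : L)).subgroupOf (MM c A)) ≤ q ^ 3 := hX
    show (KO c (z : L)).subgroupOf (MM c A) ≤ X
    rw [h3] at hX' ⊢
    exact sl_idx (by omega) _ (by rw [hE]; exact hX')

end Dat

end Cfsg.Agent.H753.IFx
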