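import Cfsg.Agent.H753.IF.HexK
import Cfsg.Agent.H400.IFD.Rank
import Cfsg.Agent.RankThree.FilterCover
import Cfsg.Agent.S1067

/-!
# S5719, `³D₄(q)`, `q` odd, 2-rank at least 2 (helper753)
-/

set_option autoImplicit false
set_option linter.unusedSectionVars false
set_option linter.style.haveILetI false

namespace Cfsg.Agent.H753.IFx

open Subgroup Cfsg.Agent.GTwoOdd Cfsg.Lie
open Cfsg.Agent.Cit.HexBase (HexGrp fx)

local notation "SL2" => Matrix.SpecialLinearGroup (Fin 2)

/-- an odd central subgroup: commuting modulo the centre with an involution -/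
theorem comm_of_mod {M : Type*} [Group M] [Finite M] (hodd : Odd (Nat.card (center M))) {z y : M} (hz : z * z = 1)
    (h : y * z * y⁻¹ * z⁻¹ ∈ center M) : y * z = z * y := by
  have hc := mem_center_iff.1 h
  have hsq : (y * z * y⁻¹ * z⁻¹) * (y * z * y⁻¹ * z⁻¹) = 1 := by
    have e1 : y * z * y⁻¹ = (y * z * y⁻¹ * z⁻¹) * z := by group
    have e2 : (y * z * y⁻¹) * (y * z * y⁻¹) = 1 := by
      calc (y * z * y⁻¹) * (y * z * y⁻¹) = y * (z * z) * y⁻¹ := by group
        _ = 1 := by rw [hz]; group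
    generalize y * z * y⁻¹ * z⁻¹ = w at e1 hc
    rw [e1] at e2
    calc w * w = w * w * (z * z) := by rw [hz, mul_one]
      _ = w * (w * z) * z := by group
      _ = w * (z * w) * z := by rw [hc z]
      _ = (w * z) * (w * z) := by group
      _ = 1 := e2
  have h1 : y * z * y⁻¹ * z⁻¹ = 1 := by
    have h5 : orderOf (⟨_, h⟩ : center M) ∣ 2 := by
      apply orderOf_dvd_of_pow_eq_one
      rw [pow_two]
      exact Subtype.ext hsq
    have h6 := orderOf_dvd_natCard (⟨_, h⟩ : center M)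
    rcases (Nat.dvd_prime Nat.prime_two).1 h5 with h7 | h7
    · exact congrArg Subtype.val (orderOf_eq_one_iff.1 h7)
    · rw [h7] at h6
      exact absurd h6 (by rw [← even_iff_two_dvd]; exact Nat.not_even_iff_odd.2 hodd)
  calc y * z = (y * z * y⁻¹ * z⁻¹) * z * y := by group
    _ = z * y := by rw [h1, one_mul]

/-- the statement ROWS -/
def Rows (L : Type) [Field L] [Fintype L] (q : ℕ) : Prop :=
  ∀ (S : Type) [Group S] [Finite S] [IsSimpleGroup S], ¬ IsMulCommutative S → Cfsg.PRankLE 2 3 S →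
    ∀ (z : S), orderOf z = 2 → ∀ j : SL2 L →* S, Function.Injective j → j (-1) = z →
      centralizer ({z} : Set S) ≤ normalizer (j.range : Set S) →
      Nat.card S ∣ q ^ 12 * (q ^ 2 - 1) * (q ^ 6 - 1) * (q ^ 8 + q ^ 4 + 1) →
      Nat.card S = q ^ 12 * (q ^ 2 - 1) * (q ^ 6 - 1) * (q ^ 8 + q ^ 4 + 1)

theorem rank_two_of {K : Type} [Field K] [Fintype K] {q : ℕ} (hrows : Rows K q) (hq : IsPrimePow q) (hodd : Odd q)
    (hK : Fintype.card K = q ^ 3) {σ : K ≃+* K} (hF : Nat.card ↥(fx σ) = q)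
    (c : HexGrp σ ↥(twistedD4 K q)) {A : Subgroup ↥(twistedD4 K q)} (hA : A ≠ ⊤)
    (hk : ∀ g, g * c.z * g⁻¹ ∈ A → ∀ x, g * c.pb x * g⁻¹ ∈ A)
    (htwo : ∃ s ∈ A, ∃ t ∈ A, orderOf s = 2 ∧ orderOf t = 2 ∧ s * t = t * s ∧ s ≠ t) : False := by
  have h2 : (2 : K) ≠ 0 := by
    apply Cfsg.Agent.ClassicalGeometry.SLTwoFour.two_ne_zero_of_odd
    rw [hK]; exact hodd.pow
  have hq1 := hq.one_lt
  have hq3 : 3 ≤ q := by obtain ⟨k, hk⟩ := hodd; omega
  have hcard := S1067.result hq hK
  have D := dat c h2 hq hodd hK hF hk htwo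
  obtain ⟨hsim, hncomm⟩ := D.simple
  have hoddc := D.odd_center
  have hn2 : ¬ 2 ∣ Nat.card (center (MM c A)) := by
    rw [← even_iff_two_dvd]; exact Nat.not_even_iff_odd.2 hoddc
  -- the rank
  have hr : Cfsg.PRankLE 2 3 (MM c A ⧸ center (MM c A)) := by
    apply RankThree.FilterCover.pRank_quotient_odd _ hn2
    have hT := H400.IFD.rank_d4 (K := K) hodd hK
    intro B hB hB2
    have h1 : Nat.card (B.map (MM c A).subtype) = Nat.card B :=
      Nat.card_congr (B.equivMapOfInjective _ (MM c A).subtype_injective).symm.toEquiv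
    rw [← h1]
    apply hT
    · refine ⟨⟨?_⟩⟩
      rintro ⟨_, a, ha, rfl⟩ ⟨_, b, hb, rfl⟩
      apply Subtype.ext
      have h3 := congrArg (fun x : B => (((x : B) : MM c A) : ↥(twistedD4 K q))) (hB.is_comm.comm ⟨a, ha⟩ ⟨b, hb⟩)
      exact h3
    · rintro _ ⟨a, ha, rfl⟩
      rw [← map_pow, hB2 a ha, map_one]
  -- the involution
  obtain ⟨s, hs, t, ht, hs2, ht2, hst, hne⟩ := htwo
  obtain ⟨g, hg⟩ := exists_conj c h2 hs2
  have hgA : g * c.z * g⁻¹ ∈ A := by rw [hg]; exact hs
  obtain ⟨z, hz⟩ : ∃ z : MM c A, z = phi c hgA (-1) := ⟨_, rfl⟩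
  have hz2 : orderOf z = 2 := by rw [← orderOf_coe, hz, phi_coe, emb_neg_one, order_conj c h2]
  have hzz : z * z = 1 := by rw [← pow_two, ← hz2, pow_orderOf_eq_one]
  have hzc : z ∉ center (MM c A) := fun h => D.no_unique hz2 (fun x => mem_center_iff.1 h x)
  have hEodd : Odd (Fintype.card K) := by rw [hK]; exact hodd.pow
  let π : MM c A →* MM c A ⧸ center (MM c A) := QuotientGroup.mk' (center (MM c A))
  have hj : Function.Injective (π.comp (phi c hgA)) := by
    rw [injective_iff_map_eq_one]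
    intro x hx
    have h1 : phi c hgA x ∈ center (MM c A) := (QuotientGroup.eq_one_iff _).1 hx
    have h3 : x ∈ center (SL2 K) := by
      rw [mem_center_iff]
      intro y
      apply phi_inj c h2 hgA
      rw [map_mul, map_mul]
      exact mem_center_iff.1 h1 _
    rcases SLNormal.mem_center_cases hEodd h3 with h4 | h4
    · exact h4
    · rw [h4, ← hz] at h1
      exact (hzc h1).elim
  have hzbar : orderOf (π z) = 2 := by
    apply orderOf_eq_prime
    · rw [pow_two, ← map_mul, hzz, map_one]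
    · intro h
      exact hzc ((QuotientGroup.eq_one_iff _).1 h)
  have hcen : centralizer ({π z} : Set (MM c A ⧸ center (MM c A))) ≤
      normalizer ((π.comp (phi c hgA)).range : Set (MM c A ⧸ center (MM c A))) := by
    have key : ∀ y ∈ centralizer ({π z} : Set (MM c A ⧸ center (MM c A))), ∀ x,
        ∃ x', y * (π.comp (phi c hgA)) x * y⁻¹ = (π.comp (phi c hgA)) x' := by
      intro y hy x
      obtain ⟨y, rfl⟩ := QuotientGroup.mk'_surjective (center (MM c A)) y
      have h1 : π y * π z = π z * π y := mem_centralizer_singleton_iff.1 hy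
      have h3 : y * z * y⁻¹ * z⁻¹ ∈ center (MM c A) := by
        rw [← QuotientGroup.eq_one_iff]
        show π (y * z * y⁻¹ * z⁻¹) = 1
        rw [map_mul, map_mul, map_mul, h1, map_inv, map_inv]
        group
      have h4 := comm_of_mod hoddc hzz h3
      have h5 : (y : ↥(twistedD4 K q)) * (g * c.z * g⁻¹) = g * c.z * g⁻¹ * (y : ↥(twistedD4 K q)) := by
        have := congrArg Subtype.val h4
        rw [hz] at this
        rw [← emb_neg_one]
        exact this
      obtain ⟨x', hx'⟩ := emb_conj c h2 h5 x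
      refine ⟨x', ?_⟩
      have h6 : y * phi c hgA x * y⁻¹ = phi c hgA x' := Subtype.ext hx'
      show π y * π (phi c hgA x) * (π y)⁻¹ = π (phi c hgA x')
      rw [← h6, map_mul, map_mul, map_inv]
    intro y hy
    rw [mem_normalizer_iff]
    intro w
    constructor
    · rintro ⟨x, rfl⟩
      obtain ⟨x', hx'⟩ := key y hy x
      exact ⟨x', hx'.symm⟩
    · rintro ⟨x, hx⟩
      obtain ⟨x', hx'⟩ := key y⁻¹ (inv_mem hy) x
      refine ⟨x', ?_⟩
      rw [← hx', hx]
      group
  have hdvd : Nat.card (MM c A ⧸ center (MM c A)) ∣ q ^ 12 * (q ^ 2 - 1) * (q ^ 6 - 1) * (q ^ 8 + q ^ 4 + 1) := by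
    rw [← hcard]
    exact (card_quotient_dvd_card _).trans (card_subgroup_dvd_card _)
  have hfin := hrows (MM c A ⧸ center (MM c A)) (fun h => hncomm (fun a b => h.is_comm.comm a b)) hr (π z) hzbar
    (π.comp (phi c hgA)) hj (by rw [hz]; rfl) hcen hdvd
  -- conclusion
  have h1 : Nat.card (MM c A ⧸ center (MM c A)) ≤ Nat.card (MM c A) :=
    Nat.card_le_card_of_surjective π (QuotientGroup.mk'_surjective _)
  rw [hfin, ← hcard] at h1
  have h3 : MM c A = ⊤ := eq_top_of_le_card _ h1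
  apply hA
  rw [eq_top_iff, ← h3]
  exact MM_le c hk

end Cfsg.Agent.H753.IFx
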