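import Cfsg.Agent.H753.IF.RTwo
import Cfsg.Agent.H209.IF.Kill

/-!
# S5719, cell `td4`, `q` odd, `|A|` even: assembly (helper753)
-/

set_option autoImplicit false
set_option linter.unusedSectionVars false

namespace Cfsg.Agent.H753.IFx

open Subgroup Cfsg.Lie Cfsg.Agent.H209.Fxy
open Cfsg.Agent.Cit.HexBase (HexGrp fx)

theorem td4_odd_of {K : Type} [Field K] [Fintype K] {q : ℕ} (hq : IsPrimePow q) (hodd : Odd q)
    (hK : Fintype.card K = q ^ 3) {σ : K ≃+* K} (hF : Nat.card ↥(fx σ) = q) (c : HexGrp σ ↥(twistedD4 K q))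
    (hrows : Rows K q)
    (hk1 : ∀ (A : Subgroup ↥(twistedD4 K q)) (Γ : Subgroup (MulAut ↥(twistedD4 K q))), IF A Γ →
      ∀ g, g * c.z * g⁻¹ ∈ A → ∀ x, g * c.pb x * g⁻¹ ∈ A)
    (hr1 : ∀ (A : Subgroup ↥(twistedD4 K q)) (Γ : Subgroup (MulAut ↥(twistedD4 K q))), IF A Γ →
      (∀ g, g * c.z * g⁻¹ ∈ A → ∀ x, g * c.pb x * g⁻¹ ∈ A) →
      (∀ s ∈ A, ∀ t ∈ A, orderOf s = 2 → orderOf t = 2 → s * t = t * s → s = t) → (∃ t ∈ A, orderOf t = 2) → False) :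
    KillE ↥(twistedD4 K q) := by
  intro A Γ h ht
  have hk := hk1 A Γ h
  refine hr1 A Γ h hk ?_ ht
  intro s hs t ht hs2 ht2 hst
  by_contra hne
  exact rank_two_of hrows hq hodd hK hF c h.ne_top hk ⟨s, hs, t, ht, hs2, ht2, hst, hne⟩

end Cfsg.Agent.H753.IFx
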